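import Cfsg.Agent.H753.LinRing

/-!
# Irreducible abelian groups of automorphisms (helper753, for S4992, task 2032)

`F` is an abelian group of automorphisms acting irreducibly on the finite abelian group `V`.
* `comm_autos` : the commutator of two automorphisms normalising `F` centralises `F`;
* `eq_one_of_fix` : an automorphism centralising `F` with a nontrivial fixed point is trivial;
* `comm_of_centralize` : the centraliser of `F` is abelian.
-/

set_option autoImplicit false
set_option linter.style.haveILetI false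
set_option linter.unusedSectionVars false

namespace Cfsg.Agent.H753.CommAutos

open Cfsg.Agent.H753.LinRing

/-- the action on the additive version of the group -/
@[reducible] def actAdd (D V : Type*) [Group D] [CommGroup V] [MulDistribMulAction D V] :
    DistribMulAction D (Additive V) where
  smul d v := Additive.ofMul (d • v.toMul)
  one_smul v := congrArg Additive.ofMul (one_smul D v.toMul)
  mul_smul a b v := congrArg Additive.ofMul (mul_smul a b v.toMul)
  smul_zero a := congrArg Additive.ofMul (smul_one a)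
  smul_add a v w := congrArg Additive.ofMul (smul_mul' a v.toMul w.toMul)

variable {V : Type*} [CommGroup V] [Finite V] {F : Subgroup (MulAut V)}

theorem irr_add (hirr : ∀ W : Subgroup V, (∀ f ∈ F, ∀ w ∈ W, f w ∈ W) → W = ⊥ ∨ W = ⊤) :
    letI := actAdd (MulAut V) V
    ∀ W : AddSubgroup (Additive V), (∀ f ∈ F, ∀ w ∈ W, f • w ∈ W) → W = ⊥ ∨ W = ⊤ := by
  intro W hW
  let U : Subgroup V :=
    { carrier := {w | Additive.ofMul w ∈ W}
      one_mem' := W.zero_mem
      mul_mem' := fun ha hb => W.add_mem ha hb
      inv_mem' := fun ha => W.neg_mem ha }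
  rcases hirr U (fun f hf w hw => hW f hf (Additive.ofMul w) hw) with h | h
  · left
    rw [AddSubgroup.eq_bot_iff_forall]
    intro x hx
    have h1 : x.toMul ∈ U := hx
    rw [h] at h1
    have h2 : x.toMul = (1 : V) := Subgroup.mem_bot.1 h1
    exact h2
  · right
    rw [AddSubgroup.eq_top_iff']
    intro x
    have h1 : x.toMul ∈ U := by rw [h]; trivial
    exact h1

theorem comm_autos (F : Subgroup (MulAut V)) (hFab : ∀ a ∈ F, ∀ b ∈ F, a * b = b * a)
    (hirr : ∀ W : Subgroup V, (∀ f ∈ F, ∀ w ∈ W, f w ∈ W) → W = ⊥ ∨ W = ⊤) (g h : MulAut V)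
    (hg : ∀ f ∈ F, g * f * g⁻¹ ∈ F) (hh : ∀ f ∈ F, h * f * h⁻¹ ∈ F) :
    ∀ f ∈ F, (g * h * g⁻¹ * h⁻¹) * f = f * (g * h * g⁻¹ * h⁻¹) := by
  letI := actAdd (MulAut V) V
  intro f hf
  rcases subsingleton_or_nontrivial V with hV | hV
  · have h1 : ∀ a b : MulAut V, a = b := fun a b => MulEquiv.ext fun x => Subsingleton.elim _ _
    exact h1 _ _
  · have hi := irr_add hirr
    have hfin : Finite (MulAut V) := inferInstance
    have hnt : Nontrivial (Additive V) := hV
    have hc : IsCyclic F := isCyclic_of_domain (V := Additive V)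
      (fun d hd => MulEquiv.ext fun x => hd (Additive.ofMul x)) hFab (domain_of_irr hFab hi)
    exact comm_cyclic hc hg hh hf

theorem eq_one_of_fix (F : Subgroup (MulAut V))
    (hirr : ∀ W : Subgroup V, (∀ f ∈ F, ∀ w ∈ W, f w ∈ W) → W = ⊥ ∨ W = ⊤) (y : MulAut V)
    (hy : ∀ f ∈ F, y * f = f * y) {v : V} (hv : v ≠ 1) (h : y v = v) : y = 1 := by
  let W : Subgroup V :=
    { carrier := {w | y w = w}
      one_mem' := map_one y
      mul_mem' := by
        intro a b ha hb
        change y (a * b) = a * b
        rw [map_mul, ha, hb]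
      inv_mem' := by
        intro a ha
        change y a⁻¹ = a⁻¹
        rw [map_inv, ha] }
  rcases hirr W (fun f hf w hw => by
    change y (f w) = f w
    have h1 : y (f w) = f (y w) := DFunLike.congr_fun (hy f hf) w
    rw [h1, show y w = w from hw]) with h1 | h1
  · exfalso
    have h2 : v ∈ W := h
    rw [h1, Subgroup.mem_bot] at h2
    exact hv h2
  · ext w
    have h2 : w ∈ W := by rw [h1]; trivial
    exact h2

theorem comm_of_centralize (F : Subgroup (MulAut V)) (hFab : ∀ a ∈ F, ∀ b ∈ F, a * b = b * a)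
    (hirr : ∀ W : Subgroup V, (∀ f ∈ F, ∀ w ∈ W, f w ∈ W) → W = ⊥ ∨ W = ⊤) (y z : MulAut V)
    (hy : ∀ f ∈ F, y * f = f * y) (hz : ∀ f ∈ F, z * f = f * z) : y * z = z * y := by
  letI := actAdd (MulAut V) V
  rcases subsingleton_or_nontrivial V with hV | hV
  · have h1 : ∀ a b : MulAut V, a = b := fun a b => MulEquiv.ext fun x => Subsingleton.elim _ _
    exact h1 _ _
  · have hi := irr_add hirr
    obtain ⟨v, hv⟩ := exists_ne (1 : V)
    have hv' : (Additive.ofMul v : Additive V) ≠ 0 := hv
    have h1 : rho (MulAut V) (Additive V) y ∈ R F (Additive V) := mem_of_centralize hFab hi hv' fun f hf => by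
      rw [← map_mul, ← map_mul, hy f hf]
    have h2 : rho (MulAut V) (Additive V) z ∈ R F (Additive V) := mem_of_centralize hFab hi hv' fun f hf => by
      rw [← map_mul, ← map_mul, hz f hf]
    have h3 := comm hFab h1 h2
    rw [← map_mul, ← map_mul] at h3
    ext w
    exact DFunLike.congr_fun h3 (Additive.ofMul w)

end Cfsg.Agent.H753.CommAutos
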